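import Mathlib.GroupTheory.SpecificGroups.Alternating
import Mathlib.GroupTheory.Perm.Cycle.Type

/-!
A Sylow `2`-subgroup of `A₁₁` given by seven generators, and facts on it checked on its 128
elements.
-/

set_option autoImplicit false
set_option maxRecDepth 100000

namespace CfsgLib.LyFus8

open Equiv

abbrev P11T := Equiv.Perm (Fin 11)

def gen : Fin 7 → P11T
  | 0 => swap 0 1 * swap 8 9
  | 1 => swap 2 3 * swap 8 9
  | 2 => swap 4 5 * swap 8 9
  | 3 => swap 6 7 * swap 8 9
  | 4 => swap 0 2 * swap 1 3
  | 5 => swap 4 6 * swap 5 7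
  | 6 => swap 0 4 * swap 1 5 * swap 2 6 * swap 3 7

/-- bit `k` of `n` -/
def bit (n : Fin 128) (k : ℕ) : Bool := n.val / 2 ^ k % 2 == 1

def pick (c : Bool) (e : P11T) : P11T := if c then e else 1

/-- the elements -/
def elt (n : Fin 128) : P11T :=
  pick (bit n 0) (gen 0) * pick (bit n 1) (gen 1) * pick (bit n 2) (gen 2) * pick (bit n 3) (gen 3) *
    pick (bit n 4) (gen 4) * pick (bit n 5) (gen 5) * pick (bit n 6) (gen 6)

/-- coordinates of an element -/
def code (σ : P11T) : Fin 128 :=
  let b6 := decide (4 ≤ (σ 0).val)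
  let σ₁ := σ * pick b6 (gen 6)
  let b4 := decide (2 ≤ (σ₁ 0).val)
  let b5 := decide (6 ≤ (σ₁ 4).val)
  let σ₂ := σ₁ * pick b5 (gen 5) * pick b4 (gen 4)
  ⟨((if (σ₂ 0).val = 1 then 1 else 0) + (if (σ₂ 2).val = 3 then 2 else 0) +
      (if (σ₂ 4).val = 5 then 4 else 0) + (if (σ₂ 6).val = 7 then 8 else 0) +
      (if b4 then 16 else 0) + (if b5 then 32 else 0) + (if b6 then 64 else 0)) % 128,
    Nat.mod_lt _ (by norm_num)⟩

theorem code_elt : ∀ n : Fin 128, code (elt n) = n := by decide +kernel

theorem elt_injective : Function.Injective elt :=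
  fun a b h => by rw [← code_elt a, h, code_elt]

theorem elt_mul_gen_apply : ∀ (n : Fin 128) (k : Fin 7) (i : Fin 11),
    elt (code (elt n * gen k)) i = (elt n * gen k) i := by decide +kernel

theorem gen_mul_self : ∀ (k : Fin 7), gen k * gen k = 1 := by decide +kernel

theorem elt_zero : elt 0 = 1 := by decide +kernel

/-- the group -/
def grp : Subgroup P11T := Subgroup.closure (Set.range gen)

theorem gen_mem (k : Fin 7) : gen k ∈ grp := Subgroup.subset_closure ⟨k, rfl⟩

theorem elt_mem (n : Fin 128) : elt n ∈ grp := by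
  have h : ∀ c k, pick c (gen k) ∈ grp := fun c k => by
    cases c
    · exact one_mem _
    · exact gen_mem k
  unfold elt
  exact mul_mem (mul_mem (mul_mem (mul_mem (mul_mem (mul_mem (h _ _) (h _ _)) (h _ _)) (h _ _))
    (h _ _)) (h _ _)) (h _ _)

theorem mem_grp {σ : P11T} : σ ∈ grp ↔ ∃ n, elt n = σ := by
  refine ⟨fun h => ?_, fun ⟨n, hn⟩ => hn ▸ elt_mem n⟩
  induction h using Subgroup.closure_induction_right with
  | one => exact ⟨0, elt_zero⟩
  | mul_right x y hx hy ih =>
    obtain ⟨n, rfl⟩ := ih
    obtain ⟨k, rfl⟩ := hy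
    exact ⟨_, Equiv.ext fun i => elt_mul_gen_apply n k i⟩
  | mul_inv_cancel x y hx hy ih =>
    obtain ⟨n, rfl⟩ := ih
    obtain ⟨k, rfl⟩ := hy
    rw [inv_eq_of_mul_eq_one_left (gen_mul_self k)]
    exact ⟨_, Equiv.ext fun i => elt_mul_gen_apply n k i⟩

theorem card_grp : Nat.card grp = 128 := by
  have h : Function.Bijective fun n : Fin 128 => (⟨elt n, elt_mem n⟩ : grp) :=
    ⟨fun a b hab => elt_injective (congrArg Subtype.val hab), fun ⟨σ, hσ⟩ => by
      obtain ⟨n, rfl⟩ := mem_grp.1 hσ
      exact ⟨n, rfl⟩⟩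
  rw [← Nat.card_eq_of_bijective _ h, Nat.card_fin]

theorem sign_gen : ∀ k : Fin 7, Equiv.Perm.sign (gen k) = 1 := by
  intro k
  fin_cases k <;> simp [gen, Equiv.Perm.sign_swap']

theorem grp_le : grp ≤ alternatingGroup (Fin 11) := by
  rw [grp, Subgroup.closure_le]
  rintro _ ⟨k, rfl⟩
  exact Equiv.Perm.mem_alternatingGroup.2 (sign_gen k)

/-- the central involution -/
def wgen : P11T := gen 0 * gen 1 * gen 2 * gen 3

theorem wgen_mem : wgen ∈ grp :=
  mul_mem (mul_mem (mul_mem (gen_mem 0) (gen_mem 1)) (gen_mem 2)) (gen_mem 3)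

theorem central_elt : ∀ n : Fin 128,
    (∀ k : Fin 7, elt n * gen k = gen k * elt n) → elt n = 1 ∨ elt n = wgen := by decide +kernel

theorem orbit_sq : ∀ i j : Fin 11, (∃ n, elt n (elt n i) = j) ↔
    (i = j ∨ (i.val < 8 ∧ j.val < 8 ∧ i.val / 4 = j.val / 4)) := by decide +kernel

theorem same_stab : ∀ i j : Fin 11, (∀ n, (elt n i = i ↔ elt n j = j)) ↔ i.val / 2 = j.val / 2 := by
  decide +kernel

theorem common_fixed : ∀ i : Fin 11, (∀ n, elt n i = i) ↔ i = 10 := by decide +kernel

theorem invol_support : ∀ n : Fin 128, elt n * elt n = 1 → elt n ≠ 1 →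
    (elt n).support.card = 4 ∨ (elt n).support.card = 8 := by decide +kernel

theorem support_gen : ∀ k : Fin 7, k ≠ 6 → (gen k).support.card = 4 := by decide +kernel

theorem support_special : (gen 6).support.card = 8 ∧ wgen.support.card = 8 ∧
    (gen 0 * gen 1 * gen 2).support.card = 8 ∧ (wgen * gen 0).support.card = 8 := by decide +kernel

theorem special_sq : wgen * wgen = 1 ∧ (gen 0 * gen 1 * gen 2) * (gen 0 * gen 1 * gen 2) = 1 ∧
    (wgen * gen 0) * (wgen * gen 0) = 1 ∧ wgen * (gen 0 * gen 1 * gen 2) = gen 3 := by decide +kernel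

/-- Involutions of `A₁₁` with the same number of moved points (at most 9) are conjugate in it. -/
theorem isConj_invol {a b : alternatingGroup (Fin 11)} (ha : a * a = 1) (hb : b * b = 1)
    (hs : (a : P11T).support.card = (b : P11T).support.card)
    (h9 : (a : P11T).support.card ≤ 9) : IsConj a b := by
  have key : ∀ c : P11T, c * c = 1 →
      c.cycleType = Multiset.replicate (c.support.card / 2) 2 := by
    intro c hc
    have h2 : ∀ m ∈ c.cycleType, m = 2 := by
      intro m hm
      have h := (Equiv.Perm.dvd_of_mem_cycleType hm).trans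
        (orderOf_dvd_of_pow_eq_one (show c ^ 2 = 1 by rw [pow_two, hc]))
      have := Nat.le_of_dvd two_pos h
      have := Equiv.Perm.two_le_of_mem_cycleType hm
      omega
    have he := Multiset.eq_replicate_of_mem h2
    have hsum := Equiv.Perm.sum_cycleType c
    rw [he, Multiset.sum_replicate, smul_eq_mul] at hsum
    rw [he]
    congr 1
    omega
  refine alternatingGroup.isConj_of ?_ (by simp only [Fintype.card_fin]; omega)
  rw [Equiv.Perm.isConj_iff_cycleType_eq,
    key _ (congrArg Subtype.val ha), key _ (congrArg Subtype.val hb), hs]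

/-- A permutation of odd order permuting the two values of `c` on an invariant set fixes them. -/
theorem bool_fixed {α : Type*} {σ : Equiv.Perm α} {n : ℕ} (hn : Odd n) (hσ : σ ^ n = 1)
    {E : α → Prop} (hE : ∀ i, E i → E (σ i)) (c : α → Bool)
    (hc : ∀ i j, E i → E j → (c i = c j ↔ c (σ i) = c (σ j))) {i : α} (hi : E i) :
    c (σ i) = c i := by
  by_contra hne
  have hflip : ∀ j, E j → c (σ j) = !c j := by
    intro j hj
    have h := hc i j hi hj
    revert h hne
    cases c i <;> cases c j <;> cases c (σ i) <;> cases c (σ j) <;> simp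
  have hiter : ∀ m : ℕ, E ((σ ^ m) i) ∧ c ((σ ^ m) i) = if Even m then c i else !c i := by
    intro m
    induction m with
    | zero => simp [hi]
    | succ m ih =>
      rw [pow_succ', Equiv.Perm.mul_apply]
      refine ⟨hE _ ih.1, ?_⟩
      rw [hflip _ ih.1, ih.2]
      by_cases hm : Even m <;> simp [hm, Nat.even_add_one]
  have h := (hiter n).2
  rw [hσ, if_neg (Nat.not_even_iff_odd.2 hn)] at h
  simp at h

/-- An odd-order element normalizing the group is trivial. -/
theorem odd_normalizer_eq_one {σ : P11T} {m : ℕ} (hm : Odd m) (hσm : σ ^ m = 1)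
    (h1 : ∀ e ∈ grp, σ * e * σ⁻¹ ∈ grp) (h2 : ∀ e ∈ grp, σ⁻¹ * e * σ ∈ grp) : σ = 1 := by
  -- what a normalizing element preserves
  have sqrel : ∀ (τ : P11T), (∀ e ∈ grp, τ * e * τ⁻¹ ∈ grp) → ∀ i j,
      (∃ n, elt n (elt n i) = j) → ∃ n, elt n (elt n (τ i)) = τ j := by
    rintro τ hτ i j ⟨n, rfl⟩
    obtain ⟨k, hk⟩ := mem_grp.1 (hτ _ (elt_mem n))
    exact ⟨k, by rw [hk]; simp⟩
  have h2' : ∀ e ∈ grp, σ⁻¹ * e * (σ⁻¹)⁻¹ ∈ grp := fun e he => by simpa using h2 e he
  have strel : ∀ i j, (∀ n, (elt n i = i ↔ elt n j = j)) →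
      ∀ n, (elt n (σ i) = σ i ↔ elt n (σ j) = σ j) := by
    intro i j h n
    obtain ⟨k, hk⟩ := mem_grp.1 (h2 _ (elt_mem n))
    have := h k
    rw [hk] at this
    simp only [Equiv.Perm.mul_apply] at this
    constructor
    · intro h0
      have h3 := this.1 (by rw [h0]; simp)
      simpa using congrArg σ h3
    · intro h0
      have h3 := this.2 (by rw [h0]; simp)
      simpa using congrArg σ h3
  have hR4 : ∀ i j : Fin 11, i.val < 8 → j.val < 8 → i.val / 4 = j.val / 4 →
      (σ i = σ j ∨ ((σ i).val < 8 ∧ (σ j).val < 8 ∧ (σ i).val / 4 = (σ j).val / 4)) :=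
    fun i j a b c => (orbit_sq _ _).1 (sqrel σ h1 i j ((orbit_sq i j).2 (Or.inr ⟨a, b, c⟩)))
  have hR4' : ∀ i j : Fin 11, i.val < 8 → j.val < 8 → (σ i).val / 4 = (σ j).val / 4 →
      (σ i).val < 8 → (σ j).val < 8 → i.val / 4 = j.val / 4 := by
    intro i j a b c hi hj
    have h := (orbit_sq _ _).1 (sqrel σ⁻¹ h2' _ _ ((orbit_sq (σ i) (σ j)).2 (Or.inr ⟨hi, hj, c⟩)))
    simp at h
    rcases h with h | h
    · rw [h]
    · exact h.2.2
  have hlt : ∀ i : Fin 11, i.val < 8 → (σ i).val < 8 := by
    intro i hi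
    obtain ⟨j, hj1, hj2, hj3⟩ : ∃ j : Fin 11, j.val < 8 ∧ i ≠ j ∧ i.val / 4 = j.val / 4 := by
      revert i
      decide
    rcases hR4 i j hi hj1 hj3 with h | h
    · exact absurd (σ.injective h) hj2
    · exact h.1
  have hR2 : ∀ i j : Fin 11, i.val / 2 = j.val / 2 ↔ (σ i).val / 2 = (σ j).val / 2 := by
    intro i j
    constructor
    · exact fun h => (same_stab _ _).1 (strel i j ((same_stab i j).2 h))
    · intro h
      refine (same_stab i j).1 fun n => ?_
      obtain ⟨k, hk⟩ := mem_grp.1 (h1 _ (elt_mem n))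
      have := (same_stab _ _).2 h k
      rw [hk] at this
      simpa using this
  have h10 : σ 10 = 10 := by
    refine (common_fixed _).1 fun n => ?_
    obtain ⟨k, hk⟩ := mem_grp.1 (h2 _ (elt_mem n))
    have h := (common_fixed 10).2 rfl k
    rw [hk] at h
    simpa using congrArg σ h
  -- the two blocks
  have hblock : ∀ i : Fin 11, i.val < 8 → (σ i).val / 4 = i.val / 4 := by
    intro i hi
    have h := bool_fixed hm hσm (E := fun i : Fin 11 => i.val < 8) hlt
      (fun i => decide (i.val / 4 = 1)) (fun a b ha hb => by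
        have r1 := hR4 a b ha hb
        have r2 := hR4' a b ha hb
        have := hlt a ha
        have := hlt b hb
        simp only [decide_eq_decide]
        constructor
        · intro h
          have hab : a.val / 4 = b.val / 4 := by omega
          rcases r1 hab with h | h
          · rw [h]
          · omega
        · intro h
          have hab : (σ a).val / 4 = (σ b).val / 4 := by omega
          have := r2 hab (hlt a ha) (hlt b hb)
          omega) hi
    have := hlt i hi
    simp only [decide_eq_decide] at h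
    omega
  have htop : ∀ i : Fin 11, 8 ≤ i.val → 8 ≤ (σ i).val := by
    intro i hi
    by_contra hlow
    have hfun : ∀ j : {j : Fin 11 // j.val < 8}, (σ j.1).val < 8 := fun j => hlt _ j.2
    obtain ⟨j, hj⟩ := (Finite.injective_iff_surjective
      (f := fun j : {j : Fin 11 // j.val < 8} => (⟨σ j.1, hfun j⟩ : {j : Fin 11 // j.val < 8}))).1
      (fun a b hab => Subtype.ext (σ.injective (congrArg Subtype.val hab))) ⟨σ i, by omega⟩
    have he := congrArg Fin.val (σ.injective (congrArg Subtype.val hj))
    have := j.2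
    omega
  have hblock' : ∀ i : Fin 11, (σ i).val / 4 = i.val / 4 := by
    intro i
    by_cases hi : i.val < 8
    · exact hblock i hi
    · have := htop i (by omega)
      have := (σ i).isLt
      have := i.isLt
      omega
  -- the pairs
  have hpair : ∀ i : Fin 11, (σ i).val / 2 = i.val / 2 := by
    intro i
    have h := bool_fixed hm hσm (E := fun j : Fin 11 => j.val / 4 = i.val / 4)
      (fun j hj => by rw [hblock' j, hj])
      (fun j => decide (j.val / 2 % 2 = 1)) (fun a b ha hb => by
        have := hR2 a b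
        have := hblock' a
        have := hblock' b
        simp only [decide_eq_decide]
        constructor <;> intro h
        · have : (σ a).val / 2 = (σ b).val / 2 := (hR2 a b).1 (by omega)
          omega
        · have : a.val / 2 = b.val / 2 := (hR2 a b).2 (by omega)
          omega) (i := i) rfl
    have := hblock' i
    simp only [decide_eq_decide] at h
    omega
  -- the points
  refine Equiv.ext fun i => ?_
  have h := bool_fixed hm hσm (E := fun j : Fin 11 => j.val / 2 = i.val / 2)
    (fun j hj => by rw [hpair j, hj])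
    (fun j => decide (j.val % 2 = 1)) (fun a b ha hb => by
      have := hpair a
      have := hpair b
      simp only [decide_eq_decide]
      constructor <;> intro h
      · have hab : a = b := Fin.ext (by omega)
        rw [hab]
      · have hab : a = b := σ.injective (Fin.ext (by omega))
        rw [hab]) (i := i) rfl
  have := hpair i
  simp only [decide_eq_decide] at h
  refine Fin.ext ?_
  simp only [Equiv.Perm.one_apply]
  omega

end CfsgLib.LyFus8
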