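import Cfsg.Agent.LyFus8.Transfer
import Cfsg.Agent.LyExist36.Main

/-!
The simple `2`-fusion statement for groups isomorphic to the presented Lyons group, from the order,
index and double coset facts of the subgroup generated by `a, b, c, d`.
-/

set_option autoImplicit false
set_option linter.style.haveILetI false

namespace CfsgLib.LyFus8

open Cfsg CfsgLib.LyExist36 CfsgLib.LyRep96

theorem isSimple_of_facts (hLy : Cfsg.IsLy Cfsg.Spor.Ly) (hi : HH.index = 8835156)
    (hK : Nat.card (HH ⊓ HH.comap (MulAut.conj (el gWord)).toMonoidHom : Subgroup Cfsg.Spor.Ly) ≤ 1008)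
    {G : Type*} [Group G] [Finite G] (hG : Cfsg.Spor.IsoLy G) (S : Sylow 2 G) :
    (Cfsg.groupFusionSystem (S : Subgroup G)).IsSimple 2 := by
  obtain ⟨e⟩ := hG
  haveI := hLy.1
  haveI : Finite Cfsg.Spor.Ly := Finite.of_equiv G e.toEquiv
  exact isSimple_of_iso hLy (exists_cover hLy.2 hi hK) e S

end CfsgLib.LyFus8
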